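import Mathlib

/-!
The numerical contradiction behind the pair criterion for cyclic Sylow subgroups.
-/

set_option autoImplicit false

namespace Cfsg.Agent.FGS4.CyclicPairs

variable {ι : Type*} [DecidableEq ι]

theorem cube_le {s d r : ℝ} (hd : 0 < d) (h : s ≤ r * d) : s ^ 3 / d ≤ r * s ^ 2 := by
  rw [div_le_iff₀ hd]
  calc s ^ 3 = s ^ 2 * s := by ring
    _ ≤ s ^ 2 * (r * d) := mul_le_mul_of_nonneg_left h (sq_nonneg s)
    _ = _ := by ring

/-- The numerical data of the principal block. -/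
structure Num (p a e : ℕ) (B : Finset ι) (o : ι) (X Y : Finset ι) (s : ι → ℤ) (d : ι → ℕ) : Prop where
  hp : 3 ≤ p
  ha : 1 ≤ a
  he : 2 ≤ e
  hdvd : e ∣ p - 1
  union : X ∪ Y = B
  disj : Disjoint X Y
  cardX : X.card = e
  cardY : Y.card * e = p ^ a - 1
  omem : o ∈ B
  so : s o = (p : ℤ) - 1
  dOne : d o = 1
  deg : ∀ i ∈ B, i ≠ o → 2 ≤ d i
  absX : ∀ i ∈ X, |s i| = (p : ℤ) - 1
  absY : |∑ i ∈ Y, s i| = (p : ℤ) - 1
  sumSq : (∑ i ∈ B, (s i : ℝ) ^ 2) ≤ ((p : ℝ) - 1) * e * (p : ℝ) ^ a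
  ident : (∑ i ∈ B, (s i : ℝ) ^ 3 / d i) = ((p : ℝ) - 2) * ∑ i ∈ B, (s i : ℝ) ^ 2
  rel : ∑ i ∈ B, s i * (d i : ℤ) = 0
  large : 2 ≤ a → o ∈ X ∧ (∀ i ∈ X, i ≠ o → p ^ a - 1 ≤ d i) ∧ ∀ i ∈ Y, p ^ a ≤ d i + e ∧ s i ≠ 0

variable {p a e : ℕ} {B X Y : Finset ι} {o : ι} {s : ι → ℤ} {d : ι → ℕ}

theorem Num.e_le (h : Num p a e B o X Y s d) : e ≤ p - 1 :=
  Nat.le_of_dvd (by have := h.hp; omega) h.hdvd

/-- If the ratios are bounded by `r`, the block is small. -/
theorem Num.master (h : Num p a e B o X Y s d) {r : ℝ}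
    (hr : ∀ i ∈ B, i ≠ o → (s i : ℝ) ≤ r * d i) :
    ((p : ℝ) - 2 - r) * ∑ i ∈ B.erase o, (s i : ℝ) ^ 2 ≤ ((p : ℝ) - 1) ^ 2 := by
  have h1 := h.ident
  rw [← Finset.add_sum_erase _ _ h.omem, ← Finset.add_sum_erase _ (fun i => (s i : ℝ) ^ 2) h.omem,
    h.dOne, h.so] at h1
  push_cast at h1
  have h2 : ∑ i ∈ B.erase o, (s i : ℝ) ^ 3 / d i ≤ r * ∑ i ∈ B.erase o, (s i : ℝ) ^ 2 := by
    rw [Finset.mul_sum]
    refine Finset.sum_le_sum fun i hi => ?_
    obtain ⟨hne, hi⟩ := Finset.mem_erase.1 hi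
    exact cube_le (by exact_mod_cast Nat.lt_of_lt_of_le Nat.two_pos (h.deg i hi hne)) (hr i hi hne)
  nlinarith [h1, h2]

/-- Two members besides the trivial one carry weight. -/
theorem Num.weight (h : Num p a e B o X Y s d) :
    ((p : ℝ) - 1) ^ 2 < ∑ i ∈ B.erase o, (s i : ℝ) ^ 2 := by
  have hp : (3 : ℝ) ≤ p := by exact_mod_cast h.hp
  have hsub : X ⊆ B ∧ Y ⊆ B := by
    rw [← h.union]; exact ⟨Finset.subset_union_left, Finset.subset_union_right⟩
  have hX : ∀ i ∈ X, (s i : ℝ) ^ 2 = ((p : ℝ) - 1) ^ 2 := by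
    intro i hi
    rw [← sq_abs, ← Int.cast_abs, h.absX i hi]
    push_cast
    ring
  by_cases ho : o ∈ X
  · obtain ⟨i, hi, hio⟩ := Finset.exists_mem_ne (by rw [h.cardX]; exact h.he) o
    obtain ⟨j, hj, hj0⟩ : ∃ j ∈ Y, s j ≠ 0 := by
      by_contra hno
      push Not at hno
      have h2 := h.absY
      rw [Finset.sum_eq_zero hno, abs_zero] at h2
      have h3 := h.hp
      omega
    have hij : i ≠ j := fun hh => Finset.disjoint_left.1 h.disj hi (hh ▸ hj)
    have hjo : j ≠ o := fun hh => Finset.disjoint_left.1 h.disj ho (hh ▸ hj)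
    have h4 : ∑ k ∈ ({i, j} : Finset ι), (s k : ℝ) ^ 2 ≤ ∑ k ∈ B.erase o, (s k : ℝ) ^ 2 := by
      refine Finset.sum_le_sum_of_subset_of_nonneg ?_ fun k _ _ => sq_nonneg _
      intro k hk
      rcases Finset.mem_insert.1 hk with rfl | hk
      · exact Finset.mem_erase.2 ⟨hio, hsub.1 hi⟩
      · rw [Finset.mem_singleton] at hk
        subst hk
        exact Finset.mem_erase.2 ⟨hjo, hsub.2 hj⟩
    rw [Finset.sum_pair hij, hX i hi] at h4
    have : (0 : ℝ) < (s j : ℝ) ^ 2 := by positivity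
    linarith
  · obtain ⟨i, j, hi, hj, hij⟩ := Finset.one_lt_card_iff.1 (by rw [h.cardX]; exact h.he : 1 < X.card)
    have h4 : ∑ k ∈ ({i, j} : Finset ι), (s k : ℝ) ^ 2 ≤ ∑ k ∈ B.erase o, (s k : ℝ) ^ 2 := by
      refine Finset.sum_le_sum_of_subset_of_nonneg ?_ fun k _ _ => sq_nonneg _
      intro k hk
      rcases Finset.mem_insert.1 hk with rfl | hk
      · exact Finset.mem_erase.2 ⟨fun hh => ho (hh ▸ hi), hsub.1 hi⟩
      · rw [Finset.mem_singleton] at hk
        subst hk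
        exact Finset.mem_erase.2 ⟨fun hh => ho (hh ▸ hj), hsub.1 hj⟩
    rw [Finset.sum_pair hij, hX i hi, hX j hj] at h4
    nlinarith

/-- For `|P| = p` every weight is at most `p - 1` in absolute value. -/
theorem Num.abs_le_of_one (h : Num p 1 e B o X Y s d) : ∀ i ∈ B, |s i| ≤ (p : ℤ) - 1 := by
  intro i hi
  rw [← h.union, Finset.mem_union] at hi
  rcases hi with hi | hi
  · exact (h.absX i hi).le
  have h1 := h.sumSq
  rw [← h.union, Finset.sum_union h.disj] at h1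
  have hX : ∑ k ∈ X, (s k : ℝ) ^ 2 = e * ((p : ℝ) - 1) ^ 2 := by
    rw [Finset.sum_congr rfl (g := fun _ => ((p : ℝ) - 1) ^ 2) fun k hk => by
      rw [← sq_abs, ← Int.cast_abs, h.absX k hk]; push_cast; ring, Finset.sum_const, h.cardX,
      nsmul_eq_mul]
  have h2 : (s i : ℝ) ^ 2 ≤ ((p : ℝ) - 1) * e := by
    have := Finset.single_le_sum (f := fun k => (s k : ℝ) ^ 2) (fun k _ => sq_nonneg _) hi
    rw [hX] at h1
    nlinarith
  have hep : (e : ℝ) ≤ (p : ℝ) - 1 := by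
    have h3 : e + 1 ≤ p := by have := h.e_le; have := h.hp; omega
    have : (e : ℝ) + 1 ≤ p := by exact_mod_cast h3
    linarith
  have hp : (3 : ℝ) ≤ p := by exact_mod_cast h.hp
  have h4 : |(s i : ℝ)| ≤ (p : ℝ) - 1 := by
    refine abs_le_of_sq_le_sq ?_ (by linarith)
    nlinarith
  exact_mod_cast h4

/-- The case `a ≥ 2`: the weights are smaller than the degrees. -/
theorem Num.lt_deg (h : Num p a e B o X Y s d) (ha : 2 ≤ a) :
    ∀ i ∈ B, i ≠ o → |(s i : ℝ)| < d i := by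
  obtain ⟨hoX, hdX, hdY⟩ := h.large ha
  have hp : (3 : ℝ) ≤ p := by exact_mod_cast h.hp
  have hpa : (p : ℝ) ^ 2 ≤ (p : ℝ) ^ a := pow_le_pow_right₀ (by linarith) ha
  have he : e + 1 ≤ p := by have := h.e_le; have := h.hp; omega
  have he' : (e : ℝ) + 1 ≤ p := by exact_mod_cast he
  intro i hi hio
  rw [← h.union, Finset.mem_union] at hi
  rcases hi with hi | hi
  · rw [← Int.cast_abs, h.absX i hi]
    have h1 : (p ^ a - 1 : ℕ) ≤ d i := hdX i hi hio
    have h2 : p ^ 2 ≤ p ^ a := Nat.pow_le_pow_right (by omega) ha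
    have h3 : p < p ^ 2 - 1 := by
      have : 3 * p ≤ p ^ 2 := by rw [pow_two]; exact Nat.mul_le_mul_right _ h.hp
      omega
    have h4 : (p : ℤ) - 1 < (d i : ℤ) := by omega
    exact_mod_cast h4
  · have h1 : (p : ℝ) ^ a ≤ d i + e := by exact_mod_cast (hdY i hi).1
    have hiB : i ∈ B.erase o := Finset.mem_erase.2 ⟨hio, h.union ▸ Finset.mem_union_right _ hi⟩
    have h2 := h.sumSq
    rw [← Finset.add_sum_erase _ _ h.omem, h.so] at h2
    push_cast at h2
    have h3 : (s i : ℝ) ^ 2 < ((p : ℝ) - 1) ^ 2 * (p : ℝ) ^ a := by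
      have := Finset.single_le_sum (f := fun k => (s k : ℝ) ^ 2) (fun k _ => sq_nonneg _) hiB
      have h5 : ((p : ℝ) - 1) * e * (p : ℝ) ^ a ≤ ((p : ℝ) - 1) * ((p : ℝ) - 1) * (p : ℝ) ^ a := by
        gcongr
        · linarith
        · linarith
      nlinarith
    have h4 : 0 ≤ (d i : ℝ) := by positivity
    refine lt_of_pow_lt_pow_left₀ 2 h4 ?_
    rw [sq_abs]
    refine h3.trans_le ?_
    have h6 : ((p : ℝ) - 1) ^ 2 * (p : ℝ) ^ a ≤ ((p : ℝ) ^ a - ((p : ℝ) - 1)) ^ 2 := by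
      nlinarith [mul_le_mul_of_nonneg_right hpa (by positivity : (0 : ℝ) ≤ (p : ℝ) ^ a), sq_nonneg ((p : ℝ) - 1)]
    refine h6.trans (pow_le_pow_left₀ (by nlinarith) ?_ 2)
    linarith

theorem Num.false_five (h : Num p a e B o X Y s d) (hp5 : 5 ≤ p) : False := by
  have hp : (5 : ℝ) ≤ p := by exact_mod_cast hp5
  have hw := h.weight
  have hr : ∀ i ∈ B, i ≠ o → (s i : ℝ) ≤ (((p : ℝ) - 1) / 2) * d i := by
    intro i hi hio
    have hd : (2 : ℝ) ≤ d i := by exact_mod_cast h.deg i hi hio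
    rcases Nat.lt_or_ge a 2 with ha | ha
    · obtain rfl : a = 1 := by have := h.ha; omega
      have h1 : ((s i : ℤ) : ℝ) ≤ ((|s i| : ℤ) : ℝ) := by exact_mod_cast le_abs_self (s i)
      have h2 : ((|s i| : ℤ) : ℝ) ≤ (((p : ℤ) - 1 : ℤ) : ℝ) := by exact_mod_cast h.abs_le_of_one i hi
      push_cast at h2
      push_cast at h1
      nlinarith
    · have h1 := h.lt_deg ha i hi hio
      have := le_abs_self (s i : ℝ)
      nlinarith
  have hm := h.master hr
  nlinarith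

theorem Num.false_three_large (h : Num 3 a e B o X Y s d) (ha : 2 ≤ a) : False := by
  obtain ⟨hoX, hdX, hdY⟩ := h.large ha
  have he : e = 2 := by have := h.e_le; have := h.he; omega
  subst he
  have hYB : Y ⊆ B := h.union ▸ Finset.subset_union_right
  have h1 := h.ident
  rw [← h.union, Finset.sum_union h.disj, Finset.sum_union h.disj,
    ← Finset.add_sum_erase _ _ hoX, ← Finset.add_sum_erase _ (fun i => (s i : ℝ) ^ 2) hoX,
    h.dOne, h.so] at h1
  norm_num at h1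
  obtain ⟨x, hx⟩ := Finset.card_eq_one.1 (show (X.erase o).card = 1 by
    rw [Finset.card_erase_of_mem hoX, h.cardX])
  have hxm : x ∈ X.erase o := by rw [hx]; exact Finset.mem_singleton_self x
  obtain ⟨hxo, hxX⟩ := Finset.mem_erase.1 hxm
  rw [hx, Finset.sum_singleton, Finset.sum_singleton] at h1
  have hx2 : (s x : ℝ) ^ 2 = 4 := by
    rw [← sq_abs, ← Int.cast_abs, h.absX x hxX]; norm_num
  have h9 : 9 ≤ 3 ^ a := le_trans (by norm_num) (Nat.pow_le_pow_right (by norm_num) ha)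
  have hx3 : (s x : ℝ) ^ 3 / d x ≤ 1 := by
    have hd : 8 ≤ d x := le_trans (by omega) (hdX x hxX hxo)
    have hd' : (8 : ℝ) ≤ d x := by exact_mod_cast hd
    rw [div_le_one (by linarith)]
    have : (s x : ℝ) ≤ 2 := by nlinarith [sq_nonneg ((s x : ℝ) - 2)]
    calc (s x : ℝ) ^ 3 = (s x : ℝ) ^ 2 * s x := by ring
      _ ≤ 4 * 2 := by rw [hx2]; linarith
      _ ≤ _ := by linarith
  rw [hx2] at h1
  have hsum := h.sumSq
  rw [← h.union, Finset.sum_union h.disj, ← Finset.add_sum_erase _ _ hoX, h.so, hx,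
    Finset.sum_singleton, hx2] at hsum
  norm_num at hsum
  have hr : ∀ i ∈ Y, 7 * (s i : ℝ) ≤ 5 * d i := by
    intro i hi
    have hsi : (s i : ℝ) ^ 2 ≤ 4 * (3 : ℝ) ^ a - 8 := by
      have := Finset.single_le_sum (f := fun k => (s k : ℝ) ^ 2) (fun k _ => sq_nonneg _) hi
      linarith
    have hdi : (3 : ℤ) ^ a ≤ (d i : ℤ) + 2 := by exact_mod_cast (hdY i hi).1
    have hsi' : (s i) ^ 2 ≤ 4 * (3 : ℤ) ^ a - 8 := by exact_mod_cast hsi
    suffices 7 * s i ≤ 5 * (d i : ℤ) by exact_mod_cast this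
    rcases Nat.lt_or_ge a 3 with ha3 | ha3
    · obtain rfl : a = 2 := by omega
      norm_num at hdi hsi'
      have : s i ≤ 5 := by nlinarith
      omega
    · have h27 : (27 : ℤ) ≤ 3 ^ a := le_trans (by norm_num) (pow_le_pow_right₀ (by norm_num) ha3)
      nlinarith
  have hY3 : ∀ i ∈ Y, (s i : ℝ) ^ 3 / d i ≤ (5 / 7) * (s i : ℝ) ^ 2 := fun i hi => by
    have hio : i ≠ o := fun hh => Finset.disjoint_left.1 h.disj hoX (hh ▸ hi)
    refine cube_le (by exact_mod_cast Nat.lt_of_lt_of_le Nat.two_pos (h.deg i (hYB hi) hio)) ?_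
    linarith [hr i hi]
  have hS : (4 : ℝ) ≤ ∑ i ∈ Y, (s i : ℝ) ^ 2 := by
    have h2 : 4 ≤ Y.card := by
      have := h.cardY
      omega
    have h3 : (Y.card : ℝ) • (1 : ℝ) ≤ ∑ i ∈ Y, (s i : ℝ) ^ 2 := by
      rw [smul_eq_mul, mul_one, show (Y.card : ℝ) = ∑ i ∈ Y, (1 : ℝ) by simp]
      refine Finset.sum_le_sum fun i hi => ?_
      have h4 : (1 : ℤ) ≤ (s i) ^ 2 := by
        have := (hdY i hi).2
        nlinarith [Int.one_le_abs this, sq_abs (s i)]
      exact_mod_cast h4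
    rw [smul_eq_mul, mul_one] at h3
    have : (4 : ℝ) ≤ Y.card := by exact_mod_cast h2
    linarith
  have h5 := Finset.sum_le_sum hY3
  rw [← Finset.mul_sum] at h5
  linarith

theorem Num.false_three_small (h : Num 3 1 e B o X Y s d) : False := by
  have he : e = 2 := by have := h.e_le; have := h.he; omega
  subst he
  have hYc : Y.card = 1 := by have := h.cardY; omega
  have hB : B.card = 3 := by
    rw [← h.union, Finset.card_union_of_disjoint h.disj, h.cardX, hYc]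
  have habs : ∀ i ∈ B, s i = 2 ∨ s i = -2 := by
    intro i hi
    rw [← h.union, Finset.mem_union] at hi
    have h2 : |s i| = 2 := by
      rcases hi with hi | hi
      · simpa using h.absX i hi
      · obtain ⟨y, hy⟩ := Finset.card_eq_one.1 hYc
        have h3 := h.absY
        rw [hy] at h3 hi
        rw [Finset.mem_singleton] at hi
        subst hi
        rw [Finset.sum_singleton] at h3
        simpa using h3
    rcases abs_choice (s i) with h3 | h3 <;> omega
  obtain ⟨i, j, hij, hB'⟩ := Finset.card_eq_two.1 (show (B.erase o).card = 2 by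
    rw [Finset.card_erase_of_mem h.omem, hB])
  have hi : i ∈ B.erase o := by rw [hB']; simp
  have hj : j ∈ B.erase o := by rw [hB']; simp
  obtain ⟨hio, hiB⟩ := Finset.mem_erase.1 hi
  obtain ⟨hjo, hjB⟩ := Finset.mem_erase.1 hj
  have h1 := h.ident
  rw [← Finset.add_sum_erase _ _ h.omem, ← Finset.add_sum_erase _ (fun i => (s i : ℝ) ^ 2) h.omem,
    h.dOne, h.so, hB', Finset.sum_pair hij, Finset.sum_pair hij] at h1
  -- the relation at the identity
  have hrelB := h.rel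
  rw [← Finset.add_sum_erase _ _ h.omem, hB', Finset.sum_pair hij, h.so, h.dOne] at hrelB
  have hdi := h.deg i hiB hio
  have hdj := h.deg j hjB hjo
  have hdiR : (2 : ℝ) ≤ d i := by exact_mod_cast hdi
  have hdjR : (2 : ℝ) ≤ d j := by exact_mod_cast hdj
  have hrelR : (2 : ℝ) + ((s i : ℝ) * d i + (s j : ℝ) * d j) = 0 := by
    have : ((((3 : ℕ) : ℤ) - 1) * ((1 : ℕ) : ℤ) + (s i * (d i : ℤ) + s j * (d j : ℤ)) : ℝ) = 0 := by
      exact_mod_cast hrelB
    push_cast at this ⊢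
    linarith
  rcases habs i hiB with hsi | hsi <;> rcases habs j hjB with hsj | hsj <;>
    rw [hsi, hsj] at h1 hrelR <;> norm_num at h1 hrelR
  · linarith
  · field_simp at h1
    nlinarith
  · field_simp at h1
    nlinarith
  · field_simp at h1
    nlinarith

theorem Num.false (h : Num p a e B o X Y s d) (hodd : p ≠ 4) : False := by
  rcases Nat.lt_or_ge p 5 with hp | hp
  · obtain rfl : p = 3 := by have := h.hp; omega
    rcases Nat.lt_or_ge a 2 with ha | ha
    · obtain rfl : a = 1 := by have := h.ha; omega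
      exact h.false_three_small
    · exact h.false_three_large ha
  · exact h.false_five hp

end Cfsg.Agent.FGS4.CyclicPairs
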